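import Mathlib

/-! The faithful irreducible modules over the field with two elements of an extension of an elementary
abelian group of order nine by a dihedral group of order eight. -/

set_option autoImplicit false
set_option linter.unusedSectionVars false
set_option maxHeartbeats 800000

namespace CfsgLib.NineEight

variable {S : Type*} [Group S]

/-- the subgroup generated by two commuting involutions -/
def klein (z u : S) (hz : z * z = 1) (hu : u * u = 1) (hc : z * u = u * z) : Subgroup S where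
  carrier := {1, z, u, z * u}
  one_mem' := Or.inl rfl
  mul_mem' := by
    have e1 : ∀ x, z * (z * x) = x := fun x => by rw [← mul_assoc, hz, one_mul]
    have e2 : ∀ x, u * (u * x) = x := fun x => by rw [← mul_assoc, hu, one_mul]
    have e3 : ∀ x, u * (z * x) = z * (u * x) := fun x => by rw [← mul_assoc, ← hc, mul_assoc]
    intro a b ha hb
    simp only [Set.mem_insert_iff, Set.mem_singleton_iff] at ha hb ⊢
    rcases ha with rfl | rfl | rfl | rfl <;> rcases hb with rfl | rfl | rfl | rfl <;>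
      simp [mul_assoc, hz, hu, e1, e2, e3, ← hc]
  inv_mem' := by
    have hz' : z⁻¹ = z := inv_eq_of_mul_eq_one_right hz
    have hu' : u⁻¹ = u := inv_eq_of_mul_eq_one_right hu
    intro a ha
    simp only [Set.mem_insert_iff, Set.mem_singleton_iff] at ha ⊢
    rcases ha with rfl | rfl | rfl | rfl <;> simp [hz', hu', hc]

theorem mem_klein {z u : S} {hz : z * z = 1} {hu : u * u = 1} {hc : z * u = u * z} {x : S} :
    x ∈ klein z u hz hu hc ↔ x = 1 ∨ x = z ∨ x = u ∨ x = z * u := Iff.rfl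

theorem card_klein {z u : S} {hz : z * z = 1} {hu : u * u = 1} {hc : z * u = u * z}
    (hz1 : z ≠ 1) (hu1 : u ≠ 1) (hne : z ≠ u) : Nat.card (klein z u hz hu hc) = 4 := by
  classical
  have h4 : ({1, z, u, z * u} : Finset S).card = 4 := by
    have a1 : z * u ≠ 1 := fun h => hne (by
      calc z = z * (u * u) := by rw [hu, mul_one]
        _ = u := by rw [← mul_assoc, h, one_mul])
    have a2 : z * u ≠ z := fun h => hu1 (mul_left_cancel (h.trans (mul_one z).symm))
    have a3 : z * u ≠ u := fun h => hz1 (mul_right_cancel (h.trans (one_mul u).symm))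
    rw [Finset.card_insert_of_notMem (by simp [hz1.symm, hu1.symm, Ne.symm a1]),
      Finset.card_insert_of_notMem (by simp [hne, Ne.symm a2]), Finset.card_pair (Ne.symm a3)]
  rw [← h4, ← Nat.card_eq_finsetCard]
  exact Nat.card_congr (Equiv.subtypeEquivRight fun x => by simp [mem_klein])

theorem nine_basis [Finite S] {A : Subgroup S} (hcomm : ∀ x ∈ A, ∀ y ∈ A, x * y = y * x) (hexp : ∀ x ∈ A, x ^ 3 = 1)
    (hA9 : Nat.card A = 9) {a b : S} (ha : a ∈ A) (hb : b ∈ A) (ha1 : a ≠ 1) (hb1 : b ≠ 1) (hba : b ≠ a)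
    (hba' : b ≠ a⁻¹) : ∀ x ∈ A, ∃ i j : Fin 3, x = a ^ (i : ℕ) * b ^ (j : ℕ) := by
  classical
  let f : Fin 3 × Fin 3 → A := fun p => ⟨a ^ (p.1 : ℕ) * b ^ (p.2 : ℕ), A.mul_mem (A.pow_mem ha _) (A.pow_mem hb _)⟩
  have hpow : ∀ {y : S}, y ^ 3 = 1 → ∀ k : ℕ, y ^ k = y ^ (k % 3) := fun {y} hy k => by
    conv_lhs => rw [← Nat.div_add_mod k 3, pow_add, pow_mul, hy, one_pow, one_mul]
  have hinv : a⁻¹ = a ^ 2 := inv_eq_of_mul_eq_one_right (by rw [← pow_succ', hexp a ha])
  have hbinv : b⁻¹ = b ^ 2 := inv_eq_of_mul_eq_one_right (by rw [← pow_succ', hexp b hb])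
  have hnot : ∀ i : Fin 3, b ≠ a ^ (i : ℕ) := fun i => by
    match i with
    | 0 => simpa using hb1
    | 1 => simpa using hba
    | 2 => rw [show ((2 : Fin 3) : ℕ) = 2 from rfl, ← hinv]; exact hba'
  have hinj : Function.Injective f := by
    rintro ⟨i, j⟩ ⟨k, l⟩ e
    have e' : a ^ (i : ℕ) * b ^ (j : ℕ) = a ^ (k : ℕ) * b ^ (l : ℕ) := congrArg Subtype.val e
    by_cases hjl : j = l
    · subst hjl
      have h1 := mul_right_cancel e'
      have hord : orderOf a = 3 := orderOf_eq_prime (hexp a ha) ha1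
      have := pow_inj_mod.1 h1
      rw [hord, Nat.mod_eq_of_lt i.2, Nat.mod_eq_of_lt k.2] at this
      exact Prod.ext (Fin.ext this) rfl
    · exfalso
      -- a power of b equals a power of a
      have h1 : b ^ ((j : ℕ) + 2 * l) = a ^ ((k : ℕ) + 2 * i) := by
        have h2 := congrArg (fun z => (a ^ 2) ^ (i : ℕ) * z * (b ^ 2) ^ (l : ℕ)) e'
        beta_reduce at h2
        have ea : (a ^ 2) ^ (i : ℕ) * a ^ (i : ℕ) = 1 := by
          rw [← pow_mul, ← pow_add, show 2 * (i : ℕ) + i = 3 * i by ring, pow_mul, hexp a ha, one_pow]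
        have eb : b ^ (l : ℕ) * (b ^ 2) ^ (l : ℕ) = 1 := by
          rw [← pow_mul, ← pow_add, show (l : ℕ) + 2 * l = 3 * l by ring, pow_mul, hexp b hb, one_pow]
        rw [← mul_assoc, ea, one_mul, ← mul_assoc, mul_assoc _ (b ^ (l : ℕ)), eb, mul_one, ← pow_mul, ← pow_mul,
          ← pow_add, ← pow_add] at h2
        rw [h2]; ring_nf
      rw [hpow (hexp b hb), hpow (hexp a ha)] at h1
      have hj : ((j : ℕ) + 2 * l) % 3 = 1 ∨ ((j : ℕ) + 2 * l) % 3 = 2 := by
        have := j.2; have := l.2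
        have : (j : ℕ) ≠ l := fun h => hjl (Fin.ext h)
        omega
      rcases hj with h | h <;> rw [h] at h1
      · rw [pow_one] at h1
        exact hnot ⟨_, Nat.mod_lt _ (by norm_num)⟩ h1
      · have h3 : b = a ^ ((((k : ℕ) + 2 * i) % 3 * 2) % 3) := by
          rw [← hpow (hexp a ha), pow_mul, ← h1, ← pow_mul, hpow (hexp b hb), show (2 * 2) % 3 = 1 from rfl, pow_one]
        exact hnot ⟨_, Nat.mod_lt _ (by norm_num)⟩ h3
  have hbij : Function.Bijective f := (Nat.bijective_iff_injective_and_card _).2 ⟨hinj, by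
    rw [hA9, Nat.card_prod, Nat.card_eq_fintype_card, Fintype.card_fin]⟩
  intro x hx
  obtain ⟨⟨i, j⟩, hij⟩ := hbij.2 ⟨x, hx⟩
  exact ⟨i, j, (congrArg Subtype.val hij).symm⟩

theorem main [Finite S] (A : Subgroup S) [A.Normal] (hcomm : ∀ x ∈ A, ∀ y ∈ A, x * y = y * x)
    (hexp : ∀ x ∈ A, x ^ 3 = 1) (hA9 : Nat.card A = 9)
    (hAC : Subgroup.centralizer (A : Set S) = A) (X : Subgroup S) (hX : Nonempty (X ≃* DihedralGroup 4))
    (hAX : A ⊔ X = ⊤)
    {M : Type*} [AddCommGroup M] [Module (ZMod 2) M] [Finite M] (ρ : Representation (ZMod 2) S M)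
    (hfaith : Function.Injective ρ)
    (hirr : ∀ N : Submodule (ZMod 2) M, (∀ s : S, ∀ m ∈ N, ρ s m ∈ N) → N = ⊥ ∨ N = ⊤) (hM : Nontrivial M) :
    Nat.card M = 16 ∧
      ∃! B : Subgroup S, B ≤ X ∧ Nat.card B = 4 ∧ (∀ b ∈ B, b ^ 2 = 1) ∧
        Nat.card {m : M // ∀ b ∈ B, ρ b m = m} = 2 := by
  classical
  -- operators
  have hmul : ∀ g h x, ρ (g * h) x = ρ g (ρ h x) := fun g h x => by rw [map_mul]; rfl
  have hone : ∀ x, ρ 1 x = x := fun x => by rw [map_one]; rfl
  have hinvr : ∀ g x, ρ g⁻¹ (ρ g x) = x := fun g x => by rw [← hmul, inv_mul_cancel, hone]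
  have hinvl : ∀ g x, ρ g (ρ g⁻¹ x) = x := fun g x => by rw [← hmul, mul_inv_cancel, hone]
  have h2 : ∀ x : M, x + x = 0 := fun x => by
    rw [← two_smul (ZMod 2) x, show (2 : ZMod 2) = 0 from rfl, zero_smul]
  have hneg : ∀ x : M, -x = x := fun x => neg_eq_of_add_eq_zero_right (h2 x)
  -- the dihedral generators
  obtain ⟨e⟩ := hX
  obtain ⟨r, s₀, hrX, hs₀X, hr4, hr2, hs₀, hs₀r, hXel⟩ : ∃ r s : S, r ∈ X ∧ s ∈ X ∧ r ^ 4 = 1 ∧ r ^ 2 ≠ 1 ∧
      s * s = 1 ∧ s * r * s = r⁻¹ ∧ ∀ x ∈ X, ∃ i : ℕ, x = r ^ i ∨ x = s * r ^ i := by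
    refine ⟨(e.symm (DihedralGroup.r 1) : X), (e.symm (DihedralGroup.sr 0) : X), Subtype.mem _, Subtype.mem _,
      ?_, ?_, ?_, ?_, ?_⟩
    · rw [← SubmonoidClass.coe_pow, ← map_pow, show (DihedralGroup.r 1 : DihedralGroup 4) ^ 4 = 1 by decide, map_one]
      rfl
    · rw [← SubmonoidClass.coe_pow, ← map_pow]
      intro h
      have : e.symm ((DihedralGroup.r 1 : DihedralGroup 4) ^ 2) = e.symm 1 := by
        rw [map_one]; exact Subtype.ext h
      exact absurd (e.symm.injective this) (by decide)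
    · rw [← Subgroup.coe_mul, ← map_mul, show (DihedralGroup.sr 0 : DihedralGroup 4) * .sr 0 = 1 by decide, map_one]
      rfl
    · rw [← Subgroup.coe_mul, ← Subgroup.coe_mul, ← map_mul, ← map_mul, ← Subgroup.coe_inv, ← map_inv,
        show (DihedralGroup.sr 0 : DihedralGroup 4) * .r 1 * .sr 0 = (DihedralGroup.r 1)⁻¹ by decide]
    · intro x hx
      have key : ∀ d : DihedralGroup 4, ∃ i : Fin 4, d = DihedralGroup.r 1 ^ (i : ℕ) ∨
          d = DihedralGroup.sr 0 * DihedralGroup.r 1 ^ (i : ℕ) := by decide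
      obtain ⟨i, h | h⟩ := key (e ⟨x, hx⟩)
      · refine ⟨i, Or.inl ?_⟩
        rw [← SubmonoidClass.coe_pow, ← map_pow, ← h, e.symm_apply_apply]
      · refine ⟨i, Or.inr ?_⟩
        rw [← SubmonoidClass.coe_pow, ← Subgroup.coe_mul, ← map_pow, ← map_mul, ← h, e.symm_apply_apply]
  set z := r ^ 2 with hzdef
  have hzz : z * z = 1 := by rw [hzdef, ← pow_add, hr4]
  have hzinv : z⁻¹ = z := inv_eq_of_mul_eq_one_right hzz
  have hzr : z * r = r * z := by rw [hzdef, ← pow_succ, ← pow_succ']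
  have hrinv : r⁻¹ = z * r := inv_eq_of_mul_eq_one_right (by
    rw [hzdef, ← pow_succ, ← pow_succ', hr4])
  -- conjugation facts on A
  have hconj : ∀ g, ∀ x ∈ A, g * x * g⁻¹ ∈ A := fun g x hx => Subgroup.Normal.conj_mem inferInstance x hx g
  have hainv : ∀ x ∈ A, x⁻¹ = x ^ 2 := fun x hx => inv_eq_of_mul_eq_one_right (by rw [← pow_succ', hexp x hx])
  have hasq : ∀ x ∈ A, x⁻¹ = x → x = 1 := fun x hx h => by
    have h1 : x * x = 1 := by nth_rw 1 [← h]; rw [inv_mul_cancel]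
    have := hexp x hx
    rwa [pow_succ, pow_two, h1, one_mul] at this
  have hzA : ∀ x ∈ A, z * x * z = x⁻¹ := by
    have hfix : ∀ c ∈ A, z * c * z = c → c = 1 := by
      intro c hc hcz
      by_contra hc1
      -- an inverted element
      obtain ⟨d, hd, hd1, hdz⟩ : ∃ d ∈ A, d ≠ 1 ∧ z * d * z = d⁻¹ := by
        obtain ⟨x, hx, hxz⟩ : ∃ x ∈ A, z * x * z ≠ x := by
          by_contra hall
          push Not at hall
          have hzC : z ∈ Subgroup.centralizer (A : Set S) := Subgroup.mem_centralizer_iff.2 fun x hx => by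
            calc x * z = z * x * z * z := by rw [hall x hx]
              _ = z * x := by rw [mul_assoc (z * x), hzz, mul_one]
          rw [hAC] at hzC
          have := hexp z hzC
          rw [pow_succ, pow_two, hzz, one_mul] at this
          exact hr2 this
        have hy : z * x * z ∈ A := by simpa [hzinv] using hconj z x hx
        refine ⟨z * x * z * x⁻¹, A.mul_mem hy (A.inv_mem hx), fun h => hxz (mul_inv_eq_one.1 h), ?_⟩
        rw [hcomm _ hy _ (A.inv_mem hx)]
        rw [mul_inv_rev, inv_inv]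
        calc z * (x⁻¹ * (z * x * z)) * z = z * x⁻¹ * z * x * (z * z) := by group
          _ = (z * x * z)⁻¹ * x := by rw [hzz, mul_one, mul_inv_rev, mul_inv_rev, hzinv, mul_assoc z x⁻¹ z]
      have hdc : d ≠ c := fun e => hd1 (by
        refine hasq d hd ?_
        rw [← hdz, e, hcz])
      have hdc' : d ≠ c⁻¹ := fun e => hd1 (by
        refine hasq d hd ?_
        rw [← hdz, e]
        calc z * c⁻¹ * z = (z * c * z)⁻¹ := by rw [mul_inv_rev, mul_inv_rev, hzinv, mul_assoc]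
          _ = c⁻¹ := by rw [hcz])
      obtain ⟨i, j, hij⟩ := nine_basis hcomm hexp hA9 hc hd hc1 hd1 hdc hdc' (r * d * r⁻¹) (hconj r d hd)
      have hconjpow : ∀ y (k : ℕ), z * y ^ k * z = (z * y * z) ^ k := fun y k => by
        nth_rw 2 4 [← hzinv]; rw [conj_pow]
      have hz2 : z * (r * d * r⁻¹) * z = (r * d * r⁻¹)⁻¹ := by
        have hzr' : r⁻¹ * z = z * r⁻¹ := by rw [hrinv, mul_assoc, ← hzr]
        calc z * (r * d * r⁻¹) * z = (z * r) * d * (r⁻¹ * z) := by group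
          _ = r * (z * d * z) * r⁻¹ := by rw [hzr, hzr']; group
          _ = (r * d * r⁻¹)⁻¹ := by rw [hdz]; group
      rw [hij] at hz2
      have hz3 : z * (c ^ (i : ℕ) * d ^ (j : ℕ)) * z = c ^ (i : ℕ) * (d ^ (j : ℕ))⁻¹ := by
        calc z * (c ^ (i : ℕ) * d ^ (j : ℕ)) * z = z * c ^ (i : ℕ) * (z * z) * d ^ (j : ℕ) * z := by
              rw [hzz]; group
          _ = (z * c ^ (i : ℕ) * z) * (z * d ^ (j : ℕ) * z) := by group
          _ = c ^ (i : ℕ) * (d ^ (j : ℕ))⁻¹ := by rw [hconjpow, hconjpow, hcz, hdz, inv_pow]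
      rw [hz3, mul_inv_rev, hcomm _ (A.inv_mem (A.pow_mem hd _)) _ (A.inv_mem (A.pow_mem hc _))] at hz2
      have hci : c ^ (i : ℕ) = 1 := hasq _ (A.pow_mem hc _) (mul_right_cancel hz2).symm
      rw [hci, one_mul] at hij
      -- r fixes the line of d, so z centralises it
      apply hd1
      refine hasq d hd ?_
      rw [← hdz]
      calc z * d * z = r * (r * d * r⁻¹) * r⁻¹ := by
            nth_rw 2 [← hzinv]; rw [hzdef, pow_two]; group
        _ = (r * d * r⁻¹) ^ (j : ℕ) := by conv_lhs => rw [hij]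
                                          exact conj_pow.symm
        _ = d ^ ((j : ℕ) * j) := by rw [hij, ← pow_mul]
        _ = d := by
          match j with
          | 0 => exact absurd (conj_eq_one_iff.1 (hij.trans (pow_zero d))) hd1
          | 1 => rw [show ((1 : Fin 3) : ℕ) = 1 from rfl, mul_one, pow_one]
          | 2 => rw [show ((2 : Fin 3) : ℕ) * ((2 : Fin 3) : ℕ) = 3 + 1 from rfl, pow_succ, hexp d hd, one_mul]
    intro x hx
    have hy : z * x * z ∈ A := by simpa [hzinv] using hconj z x hx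
    have := hfix (x * (z * x * z)) (A.mul_mem hx hy) (by
      rw [hcomm x hx _ hy]
      calc z * (z * x * z * x) * z = (z * z) * x * (z * x * z) := by group
        _ = x * (z * x * z) := by rw [hzz, one_mul]
        _ = z * x * z * x := hcomm x hx _ hy)
    exact eq_inv_of_mul_eq_one_right this
  -- a line with fixed points
  obtain ⟨a, ha, ha1, m₁, hm₁, hm₁0⟩ : ∃ a ∈ A, a ≠ 1 ∧ ∃ m, ρ a m = m ∧ m ≠ 0 := by
    by_contra hno
    push Not at hno
    obtain ⟨a, ha, ha1⟩ : ∃ a ∈ A, a ≠ 1 := by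
      by_contra h
      push Not at h
      have : A = ⊥ := (Subgroup.eq_bot_iff_forall _).2 h
      rw [this, Subgroup.card_bot] at hA9
      omega
    obtain ⟨b, hb, hb1, hba, hba'⟩ : ∃ b ∈ A, b ≠ 1 ∧ b ≠ a ∧ b ≠ a⁻¹ := by
      by_contra h
      push Not at h
      have : ∀ x ∈ A, x ∈ ({1, a, a⁻¹} : Finset S) := fun x hx => by
        simp only [Finset.mem_insert, Finset.mem_singleton]
        by_contra h'
        push Not at h'
        exact h'.2.2 (h x hx h'.1 h'.2.1)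
      have h9 : Nat.card A ≤ 3 := by
        refine le_trans ?_ (Finset.card_le_three (a := (1 : S)) (b := a) (c := a⁻¹))
        rw [← Nat.card_eq_finsetCard]
        exact Nat.card_le_card_of_injective (fun x => ⟨x.1, this x.1 x.2⟩) fun x y h =>
          Subtype.ext (congrArg (fun z => z.1) h)
      omega
    have hab := hcomm a ha b hb
    have key : ∀ y ∈ A, y ≠ 1 → ∀ x, x + ρ y x + ρ y (ρ y x) = 0 := fun y hy hy1 x =>
      hno y hy hy1 _ (by
        simp only [map_add]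
        have : ρ y (ρ y (ρ y x)) = x := by
          rw [← hmul, ← hmul, show y * y * y = y ^ 3 by rw [pow_succ, pow_two], hexp y hy, hone]
        rw [this]; abel)
    have hp : ∀ y ∈ A, y ^ 2 ≠ 1 ∨ y = 1 := fun y hy => by
      by_cases h : y = 1
      · exact Or.inr h
      · exact Or.inl fun e => h (hasq y hy (inv_eq_of_mul_eq_one_right (by rwa [← pow_two])))
    have hab1 : a * b ≠ 1 := fun h => hba' (eq_inv_of_mul_eq_one_right h)
    have hab2 : a * (b * b) ≠ 1 := fun h => hba (by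
      calc b = b * (a * (b * b)) := by rw [h, mul_one]
        _ = a * (b * b * b) := by rw [← mul_assoc, ← hab]; group
        _ = a := by rw [show b * b * b = b ^ 3 by rw [pow_succ, pow_two], hexp b hb, mul_one])
    obtain ⟨x, hx⟩ := exists_ne (0 : M)
    -- the four lines together
    have e1 := key a ha ha1 x
    have e2 := key b hb hb1 x
    have e3 := key _ (A.mul_mem ha hb) hab1 x
    have e4 := key _ (A.mul_mem ha (A.mul_mem hb hb)) hab2 x
    have e5 := key a ha ha1 (x + ρ b x + ρ b (ρ b x))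
    simp only [map_add, ← hmul] at e1 e2 e3 e4 e5
    simp only [← mul_assoc] at e5
    have q1 : a * b * (a * b) = a * a * (b * b) := by rw [mul_assoc, ← mul_assoc b, ← hab]; group
    have q2 : a * (b * b) * (a * (b * b)) = a * a * b := by
      have hab' : b * b * a = a * (b * b) := by rw [mul_assoc, ← hab, ← mul_assoc, ← hab, mul_assoc]
      calc a * (b * b) * (a * (b * b)) = a * (b * b * a) * (b * b) := by group
        _ = a * a * (b * b * b * b) := by rw [hab']; group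
        _ = a * a * b := by rw [show b * b * b = b ^ 3 by rw [pow_succ, pow_two], hexp b hb, one_mul]
    rw [q1] at e3
    rw [q2] at e4
    simp only [← mul_assoc] at e1 e2 e3 e4
    apply hx
    have hx3 : x + x + x + x = 0 := by rw [h2, zero_add, h2]
    calc x = (x + ρ a x + ρ (a * a) x) + (x + ρ b x + ρ (b * b) x) +
          (x + ρ (a * b) x + ρ (a * a * b * b) x) + (x + ρ (a * b * b) x + ρ (a * a * b) x) -
          (x + ρ b x + ρ (b * b) x + (ρ a x + ρ (a * b) x + ρ (a * b * b) x) +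
            (ρ (a * a) x + ρ (a * a * b) x + ρ (a * a * b * b) x)) - (x + x) := by abel
      _ = 0 := by rw [e5, e1, e2, e3, e4, h2]; simp [h2]
  -- its image under r
  set a' := r * a * r⁻¹ with ha'def
  have ha' : a' ∈ A := hconj r a ha
  have ha'1 : a' ≠ 1 := fun h => ha1 (conj_eq_one_iff.1 h)
  have hrr : r * a' * r⁻¹ = a⁻¹ := by
    rw [← hzA a ha, ha'def]; nth_rw 2 [← hzinv]; rw [hzdef, pow_two]; group
  have hra : r⁻¹ * a * r = a'⁻¹ := by
    have h := congrArg (fun y => r⁻¹ * y * r) hrr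
    have e : r⁻¹ * (r * a' * r⁻¹) * r = a' := by group
    rw [e] at h
    rw [h]; group
  have ha'a : a' ≠ a := fun h => ha1 (hasq a ha (by rw [← hrr, h, ← ha'def, h]))
  have ha'a' : a' ≠ a⁻¹ := fun h => ha1 (hasq a ha (by
    have := hrr
    rw [h, show r * a⁻¹ * r⁻¹ = (r * a * r⁻¹)⁻¹ by group, ← ha'def, h, inv_inv] at this
    exact this.symm))
  have hbasis := nine_basis hcomm hexp hA9 ha ha' ha1 ha'1 ha'a ha'a'
  -- the involution inverting a and centralising a'
  obtain ⟨s, hsX, hs, hsr, hXel', hsa, hsa'⟩ : ∃ s : S, s ∈ X ∧ s * s = 1 ∧ s * r * s = r⁻¹ ∧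
      (∀ x ∈ X, ∃ i : ℕ, x = r ^ i ∨ x = s * r ^ i) ∧ s * a * s = a⁻¹ ∧ s * a' * s = a' := by
    have hflip : ∀ k : ℕ, s₀ * r ^ k * s₀ = (r ^ k)⁻¹ := fun k => by
      rw [← inv_pow, ← hs₀r]
      have : s₀⁻¹ = s₀ := inv_eq_of_mul_eq_one_right hs₀
      nth_rw 2 4 [← this]; rw [conj_pow]
    have mk : ∀ k : ℕ, s₀ * r ^ k ∈ X ∧ (s₀ * r ^ k) * (s₀ * r ^ k) = 1 ∧
        (s₀ * r ^ k) * r * (s₀ * r ^ k) = r⁻¹ ∧
        ∀ x ∈ X, ∃ i : ℕ, x = r ^ i ∨ x = s₀ * r ^ k * r ^ i := by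
      intro k
      refine ⟨X.mul_mem hs₀X (X.pow_mem hrX k), ?_, ?_, fun x hx => ?_⟩
      · calc s₀ * r ^ k * (s₀ * r ^ k) = (s₀ * r ^ k * s₀) * r ^ k := by group
          _ = 1 := by rw [hflip, inv_mul_cancel]
      · calc s₀ * r ^ k * r * (s₀ * r ^ k) = (s₀ * r ^ (k + 1) * s₀) * r ^ k := by rw [pow_succ]; group
          _ = r⁻¹ := by rw [hflip, pow_succ]; group
      · obtain ⟨i, h | h⟩ := hXel x hx
        · exact ⟨i, Or.inl h⟩
        · refine ⟨3 * k + i, Or.inr ?_⟩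
          rw [h, mul_assoc, ← pow_add, show k + (3 * k + i) = 4 * k + i by ring, pow_add, pow_mul, hr4, one_pow,
            one_mul]
    have hb2 : s₀ * a * s₀ ∈ A := by simpa [inv_eq_of_mul_eq_one_right hs₀] using hconj s₀ a ha
    obtain ⟨i, j, hij⟩ := hbasis _ hb2
    have hs₀' : s₀ * a' * s₀ = r⁻¹ * (s₀ * a * s₀) * r := by
      have e1 : s₀ * r = r⁻¹ * s₀ := by rw [← hs₀r, mul_assoc _ s₀ s₀, hs₀, mul_one]
      have e2 : r⁻¹ * s₀ = s₀ * r := e1.symm
      calc s₀ * a' * s₀ = (s₀ * r) * a * (r⁻¹ * s₀) := by rw [ha'def]; group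
        _ = r⁻¹ * (s₀ * a * s₀) * r := by rw [e2]; nth_rw 1 [e1]; group
    have hpowc : ∀ y (k : ℕ), r⁻¹ * y ^ k * r = (r⁻¹ * y * r) ^ k := fun y k => by
      have h := conj_pow (i := k) (a := r⁻¹) (b := y)
      rw [inv_inv] at h; exact h.symm
    have hra' : r⁻¹ * a' * r = a := by rw [ha'def]; group
    have hs₀a' : s₀ * a' * s₀ = (a'⁻¹) ^ (i : ℕ) * a ^ (j : ℕ) := by
      rw [hs₀', hij, show r⁻¹ * (a ^ (i : ℕ) * a' ^ (j : ℕ)) * r
        = (r⁻¹ * a ^ (i : ℕ) * r) * (r⁻¹ * a' ^ (j : ℕ) * r) by group, hpowc, hpowc, hra, hra']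
    -- candidates s₀ r^k
    have hck : ∀ k y, (s₀ * r ^ k) * y * (s₀ * r ^ k) = s₀ * (r ^ k * y * (r ^ k)⁻¹) * s₀ := fun k y => by
      nth_rw 2 [show s₀ * r ^ k = (r ^ k)⁻¹ * s₀ by rw [← hflip, mul_assoc _ s₀ s₀, hs₀, mul_one]]
      group
    have hinvc : ∀ y, s₀ * y⁻¹ * s₀ = (s₀ * y * s₀)⁻¹ := fun y => by
      rw [mul_inv_rev, mul_inv_rev, inv_eq_of_mul_eq_one_right hs₀, mul_assoc]
    have hr2' : ∀ y ∈ A, r ^ 2 * y * (r ^ 2)⁻¹ = y⁻¹ := fun y hy => by rw [← hzdef, hzinv, hzA y hy]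
    have hr3 : r ^ 3 = r⁻¹ := (inv_eq_of_mul_eq_one_right (by rw [← pow_succ', hr4])).symm
    have ha2 := hainv a ha
    have ha'2 := hainv a' ha'
    match i, j, hij, hs₀a' with
    | ⟨0, _⟩, ⟨0, _⟩, hij, _ =>
      simp only [Fin.val_zero, pow_zero, mul_one] at hij
      refine absurd ?_ ha1
      calc a = s₀ * (s₀ * a * s₀) * s₀ := by
            rw [← mul_assoc, ← mul_assoc, hs₀, one_mul, mul_assoc, hs₀, mul_one]
        _ = 1 := by rw [hij, mul_one, hs₀]
    | ⟨1, _⟩, ⟨0, _⟩, hij, h' =>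
      simp only [Fin.val_zero, Fin.val_one, pow_zero, pow_one, mul_one] at hij h'
      obtain ⟨m1, m2, m3, m4⟩ := mk 2
      refine ⟨_, m1, m2, m3, m4, ?_, ?_⟩
      · rw [hck, hr2' a ha, hinvc, hij]
      · rw [hck, hr2' a' ha', hinvc, h', inv_inv]
    | ⟨2, _⟩, ⟨0, _⟩, hij, h' =>
      simp only [Fin.val_zero, show ((2 : Fin 3) : ℕ) = 2 from rfl, pow_zero, mul_one] at hij h'
      obtain ⟨m1, m2, m3, m4⟩ := mk 0
      rw [pow_zero, mul_one] at m1 m2 m3 m4
      refine ⟨_, m1, m2, m3, m4, by rw [hij, ha2], ?_⟩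
      rw [h', inv_pow, ← ha'2, inv_inv]
    | ⟨0, _⟩, ⟨1, _⟩, hij, h' =>
      simp only [Fin.val_zero, Fin.val_one, pow_zero, pow_one, one_mul] at hij h'
      obtain ⟨m1, m2, m3, m4⟩ := mk 3
      refine ⟨_, m1, m2, m3, m4, ?_, ?_⟩
      · rw [hck, hr3, inv_inv, hra, hinvc, h']
      · rw [hck, hr3, inv_inv, show r⁻¹ * a' * r = a from hra', hij]
    | ⟨0, _⟩, ⟨2, _⟩, hij, h' =>
      simp only [Fin.val_zero, show ((2 : Fin 3) : ℕ) = 2 from rfl, pow_zero, one_mul] at hij h'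
      obtain ⟨m1, m2, m3, m4⟩ := mk 1
      refine ⟨_, m1, m2, m3, m4, ?_, ?_⟩
      · rw [hck, pow_one, ← ha'def, h', ha2]
      · rw [hck, pow_one, hrr, hinvc, hij, ← ha'2, inv_inv]
    | ⟨i' + 1, hi'⟩, ⟨j' + 1, hj'⟩, hij, h' =>
      -- the square of s₀ would invert a
      exfalso
      apply ha1
      refine hasq a ha ?_
      simp only at hij h'
      have hsp : ∀ y (k : ℕ), s₀ * y ^ k * s₀ = (s₀ * y * s₀) ^ k := fun y k => by
        nth_rw 2 4 [← inv_eq_of_mul_eq_one_right hs₀]; rw [conj_pow]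
      have hc : ∀ p q : ℕ, Commute (a ^ p) ((a'⁻¹) ^ q) := fun p q =>
        hcomm _ (A.pow_mem ha p) _ (A.pow_mem (A.inv_mem ha') q)
      have e : a = a ^ ((i' + 1) * (i' + 1) + (j' + 1) * (j' + 1)) := by
        calc a = s₀ * (s₀ * a * s₀) * s₀ := by
              rw [← mul_assoc, ← mul_assoc, hs₀, one_mul, mul_assoc, hs₀, mul_one]
          _ = s₀ * a ^ (i' + 1) * (s₀ * s₀) * a' ^ (j' + 1) * s₀ := by rw [hij, hs₀]; group
          _ = (s₀ * a ^ (i' + 1) * s₀) * (s₀ * a' ^ (j' + 1) * s₀) := by group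
          _ = (a ^ (i' + 1) * a' ^ (j' + 1)) ^ (i' + 1) * (a'⁻¹ ^ (i' + 1) * a ^ (j' + 1)) ^ (j' + 1) := by
              rw [hsp, hsp, hij, h']
          _ = (a ^ (i' + 1)) ^ (i' + 1) * ((a' ^ (j' + 1)) ^ (i' + 1) * (a'⁻¹ ^ (i' + 1)) ^ (j' + 1)) *
              (a ^ (j' + 1)) ^ (j' + 1) := by
              rw [Commute.mul_pow (hcomm _ (A.pow_mem ha _) _ (A.pow_mem ha' _)),
                Commute.mul_pow (hc (j' + 1) (i' + 1)).symm]
              group
          _ = _ := by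
              rw [← pow_mul, ← pow_mul, ← pow_mul, ← pow_mul, mul_comm (j' + 1) (i' + 1), inv_pow, mul_inv_cancel,
                mul_one, ← pow_add]
      have hmod : ((i' + 1) * (i' + 1) + (j' + 1) * (j' + 1)) % 3 = 2 := by
        rcases (show i' = 0 ∨ i' = 1 by omega) with rfl | rfl <;>
          rcases (show j' = 0 ∨ j' = 1 by omega) with rfl | rfl <;> rfl
      rw [← Nat.div_add_mod ((i' + 1) * (i' + 1) + (j' + 1) * (j' + 1)) 3, hmod, pow_add, pow_mul, hexp a ha,
        one_pow, one_mul, ← ha2] at e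
      exact e.symm
    | ⟨i' + 3, hi'⟩, ⟨0, _⟩, _, _ => omega
    | ⟨0, _⟩, ⟨j' + 3, hj'⟩, _, _ => omega
  -- module
  have hzX : z ∈ X := X.pow_mem hrX 2
  have hsinv : s⁻¹ = s := inv_eq_of_mul_eq_one_right hs
  have hza : z * a * z = a⁻¹ := hzA a ha
  have hza' : z * a' * z = a'⁻¹ := hzA a' ha'
  have hsz : s * z = z * s := by
    have h : s * z * s = z⁻¹ := by
      rw [hzdef, ← inv_pow, ← hsr]; nth_rw 2 4 [← hsinv]; rw [conj_pow]
    calc s * z = s * z * s * s := by rw [mul_assoc (s * z), hs, mul_one]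
      _ = z * s := by rw [h, hzinv]
  have hsrz : s * r = r * (z * s) := by
    calc s * r = (s * r * s) * s := by rw [mul_assoc (s * r), hs, mul_one]
      _ = r * (z * s) := by rw [hsr, hrinv, hzr]; group
  let Fx : S → Submodule (ZMod 2) M := fun g => LinearMap.ker (ρ g - 1)
  have hFx : ∀ g x, x ∈ Fx g ↔ ρ g x = x := fun g x => by
    simp [Fx, LinearMap.mem_ker, sub_eq_zero]
  -- an element conjugating a to a power of itself preserves the fixed space of a
  have hpres : ∀ g y, (g⁻¹ * y * g = y ∨ g⁻¹ * y * g = y⁻¹) → ∀ x, ρ y x = x → ρ y (ρ g x) = ρ g x := by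
    intro g y hg x hx
    have e : y * g = g * (g⁻¹ * y * g) := by group
    rw [← hmul, e, hmul]
    rcases hg with h | h <;> rw [h]
    · rw [hx]
    · rw [show ρ y⁻¹ x = x by conv_lhs => rw [← hx]; rw [hinvr]]
  have haa' : a * a' = a' * a := hcomm a ha a' ha'
  have hdisj : ∀ x, ρ a x = x → ρ a' x = x → x = 0 := by
    intro x hx hx'
    let N : Submodule (ZMod 2) M := Fx a ⊓ Fx a'
    have hN : ∀ g : S, ∀ y ∈ N, ρ g y ∈ N := by
      intro g y hy
      have hyA : ∀ w ∈ A, ρ w y = y := by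
        intro w hw
        obtain ⟨i, j, rfl⟩ := hbasis w hw
        obtain ⟨h1, h2⟩ := hy
        rw [hmul]
        have hp : ∀ u, ρ u y = y → ∀ k : ℕ, ρ (u ^ k) y = y := fun u hu k => by
          induction k with
          | zero => rw [pow_zero, hone]
          | succ k ih => rw [pow_succ, hmul, hu, ih]
        rw [hp a' ((hFx _ _).1 h2), hp a ((hFx _ _).1 h1)]
      have hw : ∀ w ∈ A, ρ w (ρ g y) = ρ g y := fun w hw => by
        rw [← hmul, show w * g = g * (g⁻¹ * w * g⁻¹⁻¹) by group, hmul, hyA _ (hconj g⁻¹ w hw)]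
      exact ⟨(hFx _ _).2 (hw a ha), (hFx _ _).2 (hw a' ha')⟩
    rcases hirr N hN with h | h
    · have : x ∈ N := ⟨(hFx _ _).2 hx, (hFx _ _).2 hx'⟩
      rwa [h, Submodule.mem_bot] at this
    · refine absurd (hfaith ?_) ha1
      refine LinearMap.ext fun y => ?_
      have hy : y ∈ N := by rw [h]; trivial
      rw [(hFx _ _).1 hy.1, hone]
  have hrmap : ∀ x, ρ a x = x → ρ a' (ρ r x) = ρ r x := fun x hx => by
    rw [← hmul, show a' * r = r * a by rw [ha'def]; group, hmul, hx]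
  have hMa : ∀ W : Submodule (ZMod 2) M, W ≠ ⊥ → (∀ x ∈ W, ρ a x = x) → (∀ x ∈ W, ρ a' x ∈ W) →
      (∀ x ∈ W, ρ z x ∈ W) → (∀ x ∈ W, ρ s x ∈ W) →
      ∀ y : M, ∃ p ∈ W, ∃ q ∈ W, y = p + ρ r q := by
    intro W hW0 hWa hW1 hWz hWs
    set N := W ⊔ W.map (ρ r)
    have hgen : ∀ g, (∀ p ∈ W, ρ g p ∈ N ∧ ρ g (ρ r p) ∈ N) → ∀ y ∈ N, ρ g y ∈ N := by
      intro g hg y hy
      obtain ⟨p, hp, q, hq, rfl⟩ := Submodule.mem_sup.1 hy
      obtain ⟨q', hq', rfl⟩ := Submodule.mem_map.1 hq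
      rw [map_add]
      exact N.add_mem (hg p hp).1 (hg q' hq').2
    have hl : ∀ p ∈ W, p ∈ N := fun p hp => Submodule.mem_sup_left hp
    have hr' : ∀ p ∈ W, ρ r p ∈ N := fun p hp => Submodule.mem_sup_right (Submodule.mem_map_of_mem hp)
    have ga : ∀ y ∈ N, ρ a y ∈ N := hgen a fun p hp => by
      refine ⟨by rw [hWa p hp]; exact hl p hp, ?_⟩
      rw [← hmul, show a * r = r * a'⁻¹ by rw [← hra]; group, hmul, hainv a' ha', pow_two, hmul]
      exact hr' _ (hW1 _ (hW1 p hp))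
    have ga' : ∀ y ∈ N, ρ a' y ∈ N := hgen a' fun p hp =>
      ⟨hl _ (hW1 p hp), by rw [hrmap p (hWa p hp)]; exact hr' p hp⟩
    have gr : ∀ y ∈ N, ρ r y ∈ N := hgen r fun p hp =>
      ⟨hr' p hp, by rw [← hmul, ← pow_two, ← hzdef]; exact hl _ (hWz p hp)⟩
    have gs : ∀ y ∈ N, ρ s y ∈ N := hgen s fun p hp =>
      ⟨hl _ (hWs p hp), by rw [← hmul, hsrz, hmul, hmul]; exact hr' _ (hWz _ (hWs p hp))⟩
    have gpow : ∀ u, (∀ y ∈ N, ρ u y ∈ N) → ∀ (k : ℕ) y, y ∈ N → ρ (u ^ k) y ∈ N := by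
      intro u hu k
      induction k with
      | zero => intro y hy; rw [pow_zero, hone]; exact hy
      | succ k ih => intro y hy; rw [pow_succ, hmul]; exact ih _ (hu y hy)
    have hinv : ∀ g : S, ∀ y ∈ N, ρ g y ∈ N := by
      intro g y hy
      have hg : g ∈ A ⊔ X := by rw [hAX]; trivial
      obtain ⟨w, hw, x, hx, rfl⟩ := Subgroup.mem_sup_of_normal_left.1 hg
      obtain ⟨i, j, rfl⟩ := hbasis w hw
      obtain ⟨k, rfl | rfl⟩ := hXel' x hx
      · rw [hmul, hmul]; exact gpow a ga _ _ (gpow a' ga' _ _ (gpow r gr _ _ hy))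
      · rw [hmul, hmul, hmul]; exact gpow a ga _ _ (gpow a' ga' _ _ (gs _ (gpow r gr _ _ hy)))
    intro y
    rcases hirr N hinv with h | h
    · exact absurd ((eq_bot_iff).2 (h ▸ le_sup_left : W ≤ ⊥)) hW0
    · have hy : y ∈ N := by rw [h]; trivial
      obtain ⟨p, hp, q, hq, rfl⟩ := Submodule.mem_sup.1 hy
      obtain ⟨q', hq', rfl⟩ := Submodule.mem_map.1 hq
      exact ⟨p, hp, q', hq', rfl⟩
  have hsplit : ∀ p q, ρ a p = p → ρ a q = q → p = ρ r q → p = 0 := fun p q hp hq e =>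
    hdisj p hp (by rw [e]; exact hrmap q hq)
  have hWall : ∀ W : Submodule (ZMod 2) M, W ≠ ⊥ → (∀ x ∈ W, ρ a x = x) → (∀ x ∈ W, ρ a' x ∈ W) →
      (∀ x ∈ W, ρ z x ∈ W) → (∀ x ∈ W, ρ s x ∈ W) → ∀ x, ρ a x = x → x ∈ W := by
    intro W h0 h1 h2' h3 h4 x hx
    obtain ⟨p, hp, q, hq, rfl⟩ := hMa W h0 h1 h2' h3 h4 x
    have : ρ r q = 0 := hdisj _ (by
      rw [map_add, h1 p hp] at hx; exact add_left_cancel hx) (hrmap q (h1 q hq))
    rw [this, add_zero]; exact hp
  -- fixed points of the involutions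
  have hfix2 : ∀ g, g * g = 1 → ∀ x, ρ g x = x + (ρ g x + x) ∧ ρ g (ρ g x + x) = ρ g x + x := fun g hg x =>
    ⟨by rw [add_comm (ρ g x) x, ← add_assoc, h2, zero_add], by rw [map_add, ← hmul, hg, hone, add_comm]⟩
  have hz_a : ∀ x, ρ a x = x → ρ a (ρ z x) = ρ z x := hpres z a (Or.inr (by rw [hzinv, hza]))
  have hs_a : ∀ x, ρ a x = x → ρ a (ρ s x) = ρ s x := hpres s a (Or.inr (by rw [hsinv, hsa]))
  have ha'_a : ∀ x, ρ a x = x → ρ a (ρ a' x) = ρ a' x := fun x hx => by
    rw [← hmul, haa', hmul, hx]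
  have hsa'' : s * a' = a' * s := by
    calc s * a' = s * a' * s * s := by rw [mul_assoc (s * a'), hs, mul_one]
      _ = a' * s := by rw [hsa']
  have hs_triv : ∀ x, ρ a x = x → ρ s x = x := by
    intro x hx
    refine (hFx s x).1 ((hWall (Fx a ⊓ Fx s) ?_ (fun y hy => (hFx _ _).1 hy.1) ?_ ?_ ?_ x hx).2)
    · intro h0
      obtain ⟨-, f2⟩ := hfix2 s hs m₁
      have hmem : ρ s m₁ + m₁ ∈ Fx a ⊓ Fx s :=
        ⟨(hFx _ _).2 (by rw [map_add, hs_a _ hm₁, hm₁]), (hFx _ _).2 f2⟩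
      rw [h0, Submodule.mem_bot] at hmem
      have hm : m₁ ∈ Fx a ⊓ Fx s := ⟨(hFx _ _).2 hm₁, (hFx _ _).2 ((eq_neg_of_add_eq_zero_left hmem).trans (hneg _))⟩
      rw [h0, Submodule.mem_bot] at hm
      exact hm₁0 hm
    · exact fun y hy => ⟨(hFx _ _).2 (ha'_a y ((hFx _ _).1 hy.1)),
        (hFx _ _).2 (by rw [← hmul, hsa'', hmul, (hFx _ _).1 hy.2])⟩
    · exact fun y hy => ⟨(hFx _ _).2 (hz_a y ((hFx _ _).1 hy.1)),
        (hFx _ _).2 (by rw [← hmul, hsz, hmul, (hFx _ _).1 hy.2])⟩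
    · exact fun y hy => by rw [(hFx _ _).1 hy.2]; exact hy
  obtain ⟨m, hm, hm0, hzm⟩ : ∃ m, ρ a m = m ∧ m ≠ 0 ∧ ρ z m = m := by
    by_cases h : ρ z m₁ = m₁
    · exact ⟨m₁, hm₁, hm₁0, h⟩
    · exact ⟨ρ z m₁ + m₁, by rw [map_add, hz_a _ hm₁, hm₁],
        fun e => h ((eq_neg_of_add_eq_zero_left e).trans (hneg _)), (hfix2 z hzz m₁).2⟩
  set n := ρ a' m with hndef
  have hn : ρ a n = n := ha'_a m hm
  have hn0 : n ≠ 0 := fun h => hm0 (by
    have := hinvr a' m; rw [← hndef, h, map_zero] at this; exact this.symm)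
  have hnm : n ≠ m := fun h => hm0 (hdisj m hm h)
  have hnn : ρ a' n = m + n := by
    have h : m + n + ρ a' n = 0 := hdisj _
      (by rw [map_add, map_add, hm, hn, ha'_a n hn])
      (by
        have e : ρ a' (ρ a' n) = m := by
          rw [hndef, ← hmul, ← hmul, show a' * a' * a' = a' ^ 3 by rw [pow_succ, pow_two], hexp a' ha', hone]
        rw [map_add, map_add, e, ← hndef]; abel)
    exact (eq_neg_of_add_eq_zero_right h).trans (hneg _)
  have hzn : ρ z n = m + n := by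
    have e : z * a' = (a' * a') * z := by
      rw [← pow_two, ← hainv a' ha', ← hza', mul_assoc, hzz, mul_one]
    rw [hndef, ← hmul, e, hmul, hmul, hzm, ← hndef, hnn]
  have hmn0 : m + n ≠ 0 := fun h => hnm ((eq_neg_of_add_eq_zero_right h).trans (hneg _))
  let W : Submodule (ZMod 2) M := Submodule.span (ZMod 2) {m, n}
  have hW : ∀ x, ρ a x = x → ∃ p q : ZMod 2, p • m + q • n = x := by
    intro x hx
    refine Submodule.mem_span_pair.1 (hWall W ?_ (fun y hy => ?_) (fun y hy => ?_) (fun y hy => ?_)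
      (fun y hy => ?_) x hx)
    · intro h0
      have : m ∈ W := Submodule.subset_span (by simp)
      rw [h0, Submodule.mem_bot] at this; exact hm0 this
    all_goals obtain ⟨p, q, rfl⟩ := Submodule.mem_span_pair.1 hy
    · rw [map_add, map_smul, map_smul, hm, hn]
    · rw [map_add, map_smul, map_smul, ← hndef, hnn]
      exact Submodule.mem_span_pair.2 ⟨q, p + q, by rw [smul_add, add_smul]; abel⟩
    · rw [map_add, map_smul, map_smul, hzm, hzn]
      exact Submodule.mem_span_pair.2 ⟨p + q, q, by rw [smul_add, add_smul]; abel⟩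
    · rw [map_add, map_smul, map_smul, hs_triv m hm, hs_triv n hn]; exact hy
  have hM0 : ∀ x, ρ a x = x ↔ x = 0 ∨ x = m ∨ x = n ∨ x = m + n := by
    intro x
    constructor
    · intro hx
      obtain ⟨p, q, rfl⟩ := hW x hx
      rcases (show ∀ c : ZMod 2, c = 0 ∨ c = 1 by decide) p with rfl | rfl <;>
        rcases (show ∀ c : ZMod 2, c = 0 ∨ c = 1 by decide) q with rfl | rfl <;> simp
    · rintro (rfl | rfl | rfl | rfl)
      · exact map_zero _
      · exact hm
      · exact hn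
      · rw [map_add, hm, hn]
  let V : Submodule (ZMod 2) M := Fx a
  have hdecomp : ∀ y, ∃ p, ρ a p = p ∧ ∃ q, ρ a q = q ∧ y = p + ρ r q := by
    have hV0 : V ≠ ⊥ := fun h0 => by
      have : m ∈ V := (hFx _ _).2 hm
      rw [h0, Submodule.mem_bot] at this; exact hm0 this
    intro y
    obtain ⟨p, hp, q, hq, e⟩ := hMa V hV0 (fun x hx => (hFx _ _).1 hx)
      (fun x hx => (hFx _ _).2 (ha'_a x ((hFx _ _).1 hx))) (fun x hx => (hFx _ _).2 (hz_a x ((hFx _ _).1 hx)))
      (fun x hx => (hFx _ _).2 (hs_a x ((hFx _ _).1 hx))) y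
    exact ⟨p, (hFx _ _).1 hp, q, (hFx _ _).1 hq, e⟩
  have huniq : ∀ p q p' q', ρ a p = p → ρ a q = q → ρ a p' = p' → ρ a q' = q' → p + ρ r q = p' + ρ r q' →
      p = p' ∧ q = q' := by
    intro p q p' q' hp hq hp' hq' e
    have h1 : p - p' = ρ r (q' - q) := by
      rw [map_sub, sub_eq_sub_iff_add_eq_add, e, add_comm]
    have h0 := hsplit _ _ (by rw [map_sub, hp, hp']) (by rw [map_sub, hq', hq]) h1
    rw [h0] at h1
    refine ⟨sub_eq_zero.1 h0, ?_⟩
    have h3 := congrArg (ρ r⁻¹) h1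
    rw [map_zero, hinvr] at h3
    exact (sub_eq_zero.1 h3.symm).symm
  have hcard4 : Nat.card {x : M // ρ a x = x} = 4 := by
    have h4 : ({0, m, n, m + n} : Finset M).card = 4 := by
      rw [Finset.card_insert_of_notMem (by simp [hm0.symm, hn0.symm, hmn0.symm]),
        Finset.card_insert_of_notMem (by simp [hnm.symm, hn0]),
        Finset.card_pair (fun h => hm0 (add_right_cancel (h.symm.trans (zero_add n).symm)))]
    rw [← h4, ← Nat.card_eq_finsetCard]
    exact Nat.card_congr (Equiv.subtypeEquivRight fun x => by simp [hM0])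
  refine ⟨?_, ?_⟩
  · rw [show (16 : ℕ) = Nat.card ({x : M // ρ a x = x} × {x : M // ρ a x = x}) by rw [Nat.card_prod, hcard4]]
    refine (Nat.card_congr (Equiv.ofBijective
      (fun pq : {x : M // ρ a x = x} × {x : M // ρ a x = x} => pq.1.1 + ρ r pq.2.1) ⟨?_, ?_⟩)).symm
    · intro u v e
      obtain ⟨h1, h2'⟩ := huniq _ _ _ _ u.1.2 u.2.2 v.1.2 v.2.2 e
      exact Prod.ext (Subtype.ext h1) (Subtype.ext h2')
    · intro y
      obtain ⟨p, hp, q, hq, rfl⟩ := hdecomp y
      exact ⟨(⟨p, hp⟩, ⟨q, hq⟩), rfl⟩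
  -- the four groups
  have hr1 : r ≠ 1 := fun h => hr2 (by rw [hzdef, h, one_pow])
  have hs1 : s ≠ 1 := fun h => hr2 (by
    rw [h, one_mul, mul_one] at hsr
    rw [hzdef, pow_two]
    nth_rw 1 [hsr]; rw [inv_mul_cancel])
  set u := s * r with hudef
  have huu : u * u = 1 := by
    rw [hudef, ← mul_assoc, hsr, inv_mul_cancel]
  have huz : z * u = u * z := by
    rw [hudef, ← mul_assoc, ← hsz, mul_assoc, hzr, ← mul_assoc]
  have hu1 : u ≠ 1 := fun h => hr2 (by
    have e : r = s := mul_left_cancel (h.trans hs.symm)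
    rw [hzdef, e, pow_two, hs])
  have hzu : z ≠ u := fun h => hr2 (by
    have h1 : r * r = s * r := by rw [← pow_two, ← hzdef, h]
    have e := mul_right_cancel h1
    rw [hzdef, e, pow_two, hs])
  have hfixz : ∀ p, ρ a p = p → ρ z p = p → p = 0 ∨ p = m := by
    intro p hp hzp
    rcases (hM0 p).1 hp with rfl | rfl | rfl | rfl
    · exact Or.inl rfl
    · exact Or.inr rfl
    · exact absurd (hzn.symm.trans hzp) fun h => hm0 (add_right_cancel (h.trans (zero_add n).symm))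
    · rw [map_add, hzm, hzn, ← add_assoc, h2, zero_add] at hzp
      exact absurd hzp fun h => hm0 (add_right_cancel ((zero_add n).trans h)).symm
  have hzr' : ∀ q, ρ z (ρ r q) = ρ r (ρ z q) := fun q => by rw [← hmul, hzr, hmul]
  have huact : ∀ p q, ρ a p = p → ρ a q = q → ρ u (p + ρ r q) = ρ z q + ρ r (ρ z p) := by
    intro p q hp hq
    have e1 : ρ u p = ρ r (ρ z p) := by rw [hsrz, hmul, hmul, hs_triv p hp]
    have e2 : ρ u (ρ r q) = ρ z q := by
      rw [hudef, ← hmul, mul_assoc, ← pow_two, ← hzdef, hmul, hs_triv _ (hz_a q hq)]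
    rw [map_add, e1, e2, add_comm]
  set B := klein z u hzz huu huz
  have hBfix : Nat.card {x : M // ∀ b ∈ B, ρ b x = x} = 2 := by
    have hsum : ρ z (m + ρ r m) = m + ρ r m ∧ ρ u (m + ρ r m) = m + ρ r m := by
      refine ⟨by rw [map_add, hzr', hzm], ?_⟩
      rw [huact m m hm hm, hzm]
    have hne : (0 : M) ≠ m + ρ r m := fun h => hm0 (hsplit m m hm hm
      ((eq_neg_of_add_eq_zero_left h.symm).trans (hneg _)))
    refine (Nat.card_congr (Equiv.subtypeEquivRight (q := fun x => x ∈ ({0, m + ρ r m} : Finset M)) fun x => ?_)).trans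
      ((Nat.card_eq_finsetCard _).trans (Finset.card_pair hne))
    simp only [Finset.mem_insert, Finset.mem_singleton]
    constructor
    · intro h
      obtain ⟨p, hp, q, hq, rfl⟩ := hdecomp x
      have h1 := h z (Or.inr (Or.inl rfl))
      have h2' := h u (Or.inr (Or.inr (Or.inl rfl)))
      rw [map_add, hzr'] at h1
      obtain ⟨zp, zq⟩ := huniq _ _ _ _ (hz_a p hp) (hz_a q hq) hp hq h1
      rw [huact p q hp hq, zp, zq] at h2'
      obtain ⟨e, -⟩ := huniq _ _ _ _ hq hp hp hq h2'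
      subst e
      rcases hfixz q hq zq with rfl | rfl
      · left; rw [map_zero, add_zero]
      · exact Or.inr rfl
    · rintro (rfl | rfl) b hb
      · exact map_zero _
      · rcases mem_klein.1 hb with rfl | rfl | rfl | rfl
        · exact hone _
        · exact hsum.1
        · exact hsum.2
        · rw [hmul, hsum.2, hsum.1]
  refine ⟨B, ⟨?_, card_klein hr2 hu1 hzu, ?_, hBfix⟩, ?_⟩
  · intro b hb
    rcases mem_klein.1 hb with rfl | rfl | rfl | rfl
    · exact X.one_mem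
    · exact hzX
    · exact X.mul_mem hsX hrX
    · exact X.mul_mem hzX (X.mul_mem hsX hrX)
  · intro b hb
    rw [pow_two]
    rcases mem_klein.1 hb with rfl | rfl | rfl | rfl
    · exact one_mul _
    · exact hzz
    · exact huu
    · calc z * u * (z * u) = (z * u) * (u * z) := by rw [huz]
        _ = z * (u * u) * z := by group
        _ = 1 := by rw [huu, mul_one, hzz]
  rintro C ⟨hCX, hC4, hCexp, hCfix⟩
  set B1 := klein z s hzz hs hsz.symm
  have hzs : z ≠ s := fun h => hr2 (by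
    have e : r⁻¹ = r := hsr.symm.trans (by show s * r * s = r; rw [← h, hzr, mul_assoc, hzz, mul_one])
    rw [hzdef, pow_two]; nth_rw 1 [← e]; rw [inv_mul_cancel])
  have hsplitC : ∀ c ∈ C, c ∈ B ∨ c ∈ B1 := by
    intro c hc
    have hc2 : c * c = 1 := by rw [← pow_two]; exact hCexp c hc
    obtain ⟨i, h⟩ := hXel' c (hCX hc)
    have hi : r ^ i = 1 ∨ r ^ i = r ∨ r ^ i = z ∨ r ^ i = z * r := by
      rw [← Nat.div_add_mod i 4, pow_add, pow_mul, hr4, one_pow, one_mul]
      rcases (show i % 4 = 0 ∨ i % 4 = 1 ∨ i % 4 = 2 ∨ i % 4 = 3 by omega) with e | e | e | e <;> rw [e]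
      · exact Or.inl (pow_zero r)
      · exact Or.inr (Or.inl (pow_one r))
      · exact Or.inr (Or.inr (Or.inl hzdef.symm))
      · exact Or.inr (Or.inr (Or.inr (pow_succ r 2)))
    rcases h with rfl | rfl <;> rcases hi with e | e | e | e <;> rw [e] at hc2 ⊢
    · exact Or.inl B.one_mem
    · exact absurd (by rw [hzdef, pow_two]; exact hc2) hr2
    · exact Or.inl (Or.inr (Or.inl rfl))
    · exact absurd (by
        rw [← hrinv, ← mul_inv_rev, inv_eq_one] at hc2
        rw [hzdef, pow_two]; exact hc2) hr2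
    · rw [mul_one]; exact Or.inr (Or.inr (Or.inr (Or.inl rfl)))
    · exact Or.inl (Or.inr (Or.inr (Or.inl rfl)))
    · rw [hsz]; exact Or.inr (Or.inr (Or.inr (Or.inr rfl)))
    · rw [← mul_assoc, hsz, mul_assoc, ← hudef]; exact Or.inl (Or.inr (Or.inr (Or.inr rfl)))
  have heq : ∀ D : Subgroup S, C ≤ D → Nat.card D = 4 → C = D := fun D hle hD =>
    Subgroup.eq_of_le_of_card_ge hle (by rw [hC4, hD])
  by_cases hall : C ≤ B
  · exact heq B hall (card_klein hr2 hu1 hzu)
  exfalso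
  obtain ⟨c, hc, hcB⟩ := SetLike.not_le_iff_exists.1 hall
  have hle1 : C ≤ B1 := by
    intro d hd
    by_contra hdB
    have hdB' : d ∈ B := (hsplitC d hd).resolve_right hdB
    have hcB' : c ∈ B1 := (hsplitC c hc).resolve_left hcB
    rcases hsplitC _ (C.mul_mem hc hd) with h | h
    · exact hcB ((Subgroup.mul_mem_cancel_right B hdB').1 h)
    · exact hdB ((Subgroup.mul_mem_cancel_left B1 hcB').1 h)
  have hC1 := heq B1 hle1 (card_klein hr2 hs1 hzs)
  rw [hC1] at hCfix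
  have hfixB1 : ∀ x : M, (x = m ∨ x = ρ r m ∨ x = 0) → ∀ b ∈ B1, ρ b x = x := by
    intro x hx
    have hzx : ρ z x = x := by
      rcases hx with rfl | rfl | rfl
      · exact hzm
      · rw [hzr', hzm]
      · exact map_zero _
    have hsx : ρ s x = x := by
      rcases hx with rfl | rfl | rfl
      · exact hs_triv _ hm
      · rw [← hmul]; show ρ u m = ρ r m; rw [hsrz, hmul, hmul, hs_triv m hm, hzm]
      · exact map_zero _
    intro b hb
    rcases mem_klein.1 hb with rfl | rfl | rfl | rfl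
    · exact hone _
    · exact hzx
    · exact hsx
    · rw [hmul, hsx, hzx]
  have hrm0 : ρ r m ≠ 0 := fun h => hm0 (by
    have := hinvr r m; rw [h, map_zero] at this; exact this.symm)
  have hrmm : m ≠ ρ r m := fun h => hm0 (hsplit m m hm hm h)
  have h3 : 3 ≤ Nat.card {x : M // ∀ b ∈ B1, ρ b x = x} := by
    rw [show (3 : ℕ) = ({m, ρ r m, 0} : Finset M).card from
      (Finset.card_eq_three.2 ⟨m, ρ r m, 0, hrmm, hm0, hrm0, rfl⟩).symm, ← Nat.card_eq_finsetCard]
    refine Nat.card_le_card_of_injective (fun x => ⟨x.1, hfixB1 x.1 (by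
      have := x.2; simp only [Finset.mem_insert, Finset.mem_singleton] at this; exact this)⟩)
      fun x y h => Subtype.ext (congrArg (fun q => q.1) h)
  omega

end CfsgLib.NineEight
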